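import Mathlib.Order.RelSeries
import Mathlib.Order.Cover
import Mathlib.Order.Interval.Set.OrdConnected

/-! Catenary posets: invariance under order isomorphisms and locality on lower intervals
(lead's library). -/

set_option autoImplicit false

universe u v

namespace Groth.Agent.Lib.Lead.Catenary

/-- The catenary condition on a preorder (the shape used by `CAlg.IsCatenary`). -/
def Cat (P : Type u) [Preorder P] : Prop :=
  (∀ p q : P, p ≤ q → ∃ n : ℕ, ∀ s : LTSeries P, s.head = p → s.last = q → s.length ≤ n) ∧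
  ∀ s t : LTSeries P, s.head = t.head → s.last = t.last →
    (∀ i : Fin s.length, s (Fin.castSucc i) ⋖ s (Fin.succ i)) →
    (∀ i : Fin t.length, t (Fin.castSucc i) ⋖ t (Fin.succ i)) →
    s.length = t.length

variable {P : Type u} [PartialOrder P] {Q : Type v} [PartialOrder Q]

/-- Map an `LTSeries` along an order embedding whose range is order-connected: saturated
chains stay saturated. -/
theorem map_covBy_of_ordConnected (f : P ↪o Q) (h : (Set.range f).OrdConnected)
    (s : LTSeries P) (hs : ∀ i : Fin s.length, s (Fin.castSucc i) ⋖ s (Fin.succ i)) :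
    ∀ i : Fin (s.map f f.strictMono).length,
      (s.map f f.strictMono) (Fin.castSucc i) ⋖ (s.map f f.strictMono) (Fin.succ i) := by
  intro i
  exact (h.apply_covBy_apply_iff f).mpr (hs i)

theorem cat_of_orderIso (e : P ≃o Q) (h : Cat P) : Cat Q := by
  obtain ⟨h1, h2⟩ := h
  refine ⟨fun p q hpq => ?_, fun s t hh hl hs ht => ?_⟩
  · obtain ⟨n, hn⟩ := h1 (e.symm p) (e.symm q) (e.symm.monotone hpq)
    refine ⟨n, fun s hsh hsl => ?_⟩
    have := hn (s.map e.symm e.symm.strictMono) (by simp [hsh]) (by simp [hsl])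
    simpa using this
  · have := h2 (s.map e.symm e.symm.strictMono) (t.map e.symm e.symm.strictMono)
      (by simp [hh]) (by simp [hl])
      (fun i => (apply_covBy_apply_iff e.symm).mpr (hs i))
      (fun i => (apply_covBy_apply_iff e.symm).mpr (ht i))
    simpa using this

/-- Lift a series whose last element is `≤ m` to the lower interval `Iic m`. -/
def liftIic (m : P) (s : LTSeries P) (h : s.last ≤ m) : LTSeries (Set.Iic m) where
  length := s.length
  toFun i := ⟨s i, (s.monotone (Fin.le_last i)).trans h⟩
  step i := s.step i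

theorem ordConnected_range_subtype (m : P) :
    (Set.range (OrderEmbedding.subtype (fun x => x ∈ Set.Iic m))).OrdConnected := by
  have : Set.range (OrderEmbedding.subtype (fun x => x ∈ Set.Iic m)) = Set.Iic m := by
    ext x; simp
  rw [this]; exact Set.ordConnected_Iic

theorem cat_Iic (m : P) (h : Cat P) : Cat (Set.Iic m) := by
  obtain ⟨h1, h2⟩ := h
  let f : Set.Iic m ↪o P := OrderEmbedding.subtype _
  refine ⟨fun p q hpq => ?_, fun s t hh hl hs ht => ?_⟩
  · obtain ⟨n, hn⟩ := h1 p.1 q.1 hpq
    refine ⟨n, fun s hsh hsl => ?_⟩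
    have := hn (s.map f f.strictMono) (by simp [f, hsh]) (by simp [f, hsl])
    simpa using this
  · have := h2 (s.map f f.strictMono) (t.map f f.strictMono) (by simp [f, hh]) (by simp [f, hl])
      (map_covBy_of_ordConnected f (ordConnected_range_subtype m) s hs)
      (map_covBy_of_ordConnected f (ordConnected_range_subtype m) t ht)
    simpa using this

theorem cat_of_Iic (M : Set P) (hM : ∀ q : P, ∃ m ∈ M, q ≤ m)
    (h : ∀ m ∈ M, Cat (Set.Iic m)) : Cat P := by
  refine ⟨fun p q hpq => ?_, fun s t hh hl hs ht => ?_⟩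
  · obtain ⟨m, hm, hqm⟩ := hM q
    obtain ⟨n, hn⟩ := (h m hm).1 ⟨p, hpq.trans hqm⟩ ⟨q, hqm⟩ hpq
    refine ⟨n, fun s hsh hsl => ?_⟩
    have hl' : s.last ≤ m := hsl ▸ hqm
    have := hn (liftIic m s hl') (Subtype.ext hsh) (Subtype.ext hsl)
    exact this
  · obtain ⟨m, hm, hqm⟩ := hM s.last
    have hs' : s.last ≤ m := hqm
    have ht' : t.last ≤ m := hl ▸ hqm
    let f : Set.Iic m ↪o P := OrderEmbedding.subtype _
    have hc := ordConnected_range_subtype m
    have := (h m hm).2 (liftIic m s hs') (liftIic m t ht') (Subtype.ext hh) (Subtype.ext hl)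
      (fun i => (hc.apply_covBy_apply_iff f).mp (hs i))
      (fun i => (hc.apply_covBy_apply_iff f).mp (ht i))
    exact this

end Groth.Agent.Lib.Lead.Catenary
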