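import Mathlib.RingTheory.RegularLocalRing.Defs
import Mathlib.RingTheory.KrullDimension.Regular
import Mathlib.RingTheory.Ideal.MinimalPrime.Noetherian
import Mathlib.RingTheory.Nakayama
import Mathlib.LinearAlgebra.Basis.VectorSpace

/-! Regular local rings are domains (lead's library). -/

set_option autoImplicit false

universe u

namespace Groth.Agent.Lib.Lead.RegLocal

open IsLocalRing

/-- If `x ∈ m \ m²` in a Noetherian local ring, the maximal ideal of `R ⧸ (x)` needs at most
`spanFinrank m - 1` generators. -/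
theorem spanFinrank_quotient_add_one_le (R : Type u) [CommRing R] [IsLocalRing R]
    [IsNoetherianRing R] (x : R) (hx : x ∈ maximalIdeal R) (hx2 : x ∉ maximalIdeal R ^ 2)
    [IsLocalRing (R ⧸ Ideal.span ({x} : Set R))] :
    (maximalIdeal (R ⧸ Ideal.span ({x} : Set R))).spanFinrank + 1 ≤
      (maximalIdeal R).spanFinrank := by
  classical
  set K := ResidueField R
  set V := CotangentSpace R
  set v : V := (maximalIdeal R).toCotangent ⟨x, hx⟩
  have hv : v ≠ 0 := by
    intro h
    exact hx2 ((Ideal.toCotangent_eq_zero _ _).mp h)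
  have hli : LinearIndepOn K id ({v} : Set V) := (linearIndepOn_singleton_iff K).mpr hv
  set S : Set V := hli.extend (Set.subset_univ _)
  let B : Module.Basis S K V := Module.Basis.extend hli
  have hvS : v ∈ S := hli.subset_extend _ rfl
  have hSspan : Submodule.span K S = ⊤ := by
    have := B.span_eq
    rwa [Module.Basis.range_extend] at this
  have hSfin : S.Finite := by
    have : Finite S := Module.Finite.finite_basis B
    exact Set.toFinite S
  have hcard : S.ncard = Module.finrank K V := by
    rw [Module.finrank_eq_nat_card_basis B, Nat.card_coe_set_eq]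
  have hsurj : Function.Surjective (maximalIdeal R).toCotangent :=
    (maximalIdeal R).toCotangent_surjective
  set lift : V → maximalIdeal R := Function.surjInv hsurj
  have hlift : ∀ w, (maximalIdeal R).toCotangent (lift w) = w := Function.surjInv_eq hsurj
  set T : Set (maximalIdeal R) := insert ⟨x, hx⟩ (lift '' (S \ {v}))
  have hTimg : (maximalIdeal R).toCotangent '' T = S := by
    rw [Set.image_insert_eq, Set.image_image]
    simp only [hlift, Set.image_id']
    change insert v (S \ {v}) = S
    rw [Set.insert_sdiff_singleton, Set.insert_eq_of_mem hvS]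
  have hTspan : Submodule.span R T = ⊤ := by
    rw [← CotangentSpace.span_image_eq_top_iff, hTimg, hSspan]
  have hm : maximalIdeal R = Ideal.span (insert x (Subtype.val '' (lift '' (S \ {v})))) := by
    have := congrArg (Submodule.map (maximalIdeal R).subtype) hTspan
    rw [Submodule.map_span, Submodule.map_top, Submodule.range_subtype] at this
    refine this.symm.trans ?_
    change Submodule.span R _ = Submodule.span R _
    congr 1
    simp [T, Set.image_insert_eq]
  set f : R →+* R ⧸ Ideal.span ({x} : Set R) := Ideal.Quotient.mk _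
  have hf : Function.Surjective f := Ideal.Quotient.mk_surjective
  generalize hU : Subtype.val '' (lift '' (S \ {v})) = U at hm
  have hUfin : U.Finite := hU ▸ ((hSfin.sdiff).image _ |>.image _)
  have hUcard : U.ncard ≤ (S \ {v}).ncard := by
    rw [← hU]
    refine (Set.ncard_image_le ((hSfin.sdiff).image _)).trans ?_
    exact Set.ncard_image_le hSfin.sdiff
  have hm' : maximalIdeal (R ⧸ Ideal.span ({x} : Set R)) =
      Ideal.span (f '' U) := by
    rw [← IsLocalRing.map_maximalIdeal_of_surjective f hf, hm, Ideal.map_span,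
      Set.image_insert_eq]
    have hfx : f x = 0 := Ideal.Quotient.eq_zero_iff_mem.mpr (Ideal.mem_span_singleton_self x)
    rw [hfx, Ideal.span_insert_zero]
  have hfin : (f '' U).Finite := hUfin.image _
  have h1 := Submodule.spanFinrank_span_le_ncard_of_finite (R := R ⧸ Ideal.span ({x} : Set R)) hfin
  rw [show Submodule.span (R ⧸ Ideal.span ({x} : Set R)) (f '' U) = Ideal.span (f '' U) from rfl,
    ← hm'] at h1
  have h2 : (f '' U).ncard ≤ (S \ {v}).ncard := (Set.ncard_image_le hUfin).trans hUcard
  have h3 : (S \ {v}).ncard + 1 = S.ncard := by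
    rw [Set.ncard_sdiff_singleton_add_one hvS hSfin]
  have h4 := spanFinrank_maximalIdeal_eq_finrank_cotangentSpace (R := R)
  have hcard' : S.ncard = Module.finrank (ResidueField R) (CotangentSpace R) := hcard
  omega


theorem isDomain_aux : ∀ (n : ℕ) (R : Type u) [CommRing R] [IsRegularLocalRing R],
    (maximalIdeal R).spanFinrank = n → IsDomain R := by
  intro n
  induction n using Nat.strong_induction_on with
  | _ n ih =>
  intro R _ _ hn
  classical
  have hdim : ringKrullDim R = n := by
    rw [← hn]; exact (IsRegularLocalRing.spanFinrank_maximalIdeal).symm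
  have hfgm : (maximalIdeal R).FG := (maximalIdeal R).fg_of_isNoetherianRing
  have hjac : maximalIdeal R ≤ (⊥ : Ideal R).jacobson :=
    (IsLocalRing.jacobson_eq_maximalIdeal ⊥ bot_ne_top).ge
  rcases Nat.eq_zero_or_pos n with h0 | hpos
  · have hbot : maximalIdeal R = ⊥ :=
      (Submodule.spanFinrank_eq_zero_iff_eq_bot hfgm).mp (hn.trans h0)
    exact (IsLocalRing.isField_iff_maximalIdeal_eq.mpr hbot).isDomain
  have hfinmin : (minimalPrimes R).Finite := minimalPrimes.finite_of_isNoetherianRing R
  set s : Finset (Ideal R) := insert (maximalIdeal R ^ 2) hfinmin.toFinset with hs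
  have hprime : ∀ i ∈ s, i ≠ maximalIdeal R ^ 2 → i ≠ maximalIdeal R ^ 2 →
      (id i : Ideal R).IsPrime := by
    intro i hi h1 _
    rcases Finset.mem_insert.mp hi with h | h
    · exact absurd h h1
    · exact (hfinmin.mem_toFinset.mp h).1.1
  have hnot : ¬ ((maximalIdeal R : Set R) ⊆ ⋃ i ∈ (↑s : Set (Ideal R)), (id i : Ideal R)) := by
    rw [Ideal.subset_union_prime (f := id) (maximalIdeal R ^ 2) (maximalIdeal R ^ 2) hprime]
    rintro ⟨i, hi, hle⟩
    rcases Finset.mem_insert.mp hi with h | h
    · subst h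
      have hb : maximalIdeal R = ⊥ := by
        apply Submodule.eq_bot_of_le_smul_of_le_jacobson_bot (maximalIdeal R) (maximalIdeal R)
          hfgm _ hjac
        rw [smul_eq_mul, ← pow_two]; exact hle
      have := (Submodule.spanFinrank_eq_zero_iff_eq_bot hfgm).mpr hb
      omega
    · have hmin : i ∈ minimalPrimes R := hfinmin.mem_toFinset.mp h
      have hip : i.IsPrime := hmin.1.1
      have heq : i = maximalIdeal R :=
        ((maximalIdeal.isMaximal R).eq_of_le hip.ne_top hle).symm
      have hmmin : maximalIdeal R ∈ minimalPrimes R := heq ▸ hmin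
      have hh : (maximalIdeal R).height = 0 := Ideal.height_eq_zero_iff.mpr hmmin
      have := IsLocalRing.maximalIdeal_height_eq_ringKrullDim (R := R)
      rw [hh, hdim] at this
      have : (n : WithBot ℕ∞) = 0 := by rw [← this]; rfl
      norm_cast at this
      omega
  obtain ⟨x, hxm, hxnot⟩ := Set.not_subset.mp hnot
  simp only [Set.mem_iUnion, Finset.mem_coe, id, not_exists, hs, Finset.mem_insert,
    Set.Finite.mem_toFinset] at hxnot
  have hx2 : x ∉ maximalIdeal R ^ 2 := fun h => hxnot _ (Or.inl rfl) h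
  have hxmin : ∀ p ∈ minimalPrimes R, x ∉ p := fun p hp h => hxnot p (Or.inr hp) h
  set I : Ideal R := Ideal.span ({x} : Set R) with hI
  have hIle : I ≤ maximalIdeal R := (Ideal.span_singleton_le_iff_mem _).mpr hxm
  have hItop : I ≠ ⊤ := ne_top_of_le_ne_top (maximalIdeal.isMaximal R).ne_top hIle
  have : Nontrivial (R ⧸ I) := Ideal.Quotient.nontrivial_iff.mpr hItop
  have : IsLocalRing (R ⧸ I) :=
    IsLocalRing.of_surjective' (Ideal.Quotient.mk I) Ideal.Quotient.mk_surjective
  have hA : (maximalIdeal (R ⧸ I)).spanFinrank + 1 ≤ (maximalIdeal R).spanFinrank :=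
    spanFinrank_quotient_add_one_le R x hxm hx2
  have hd1 : ringKrullDim R ≤ ringKrullDim (R ⧸ I) + 1 := by
    rw [← IsLocalRing.maximalIdeal_height_eq_ringKrullDim]
    exact Ideal.height_le_ringKrullDim_quotient_add_one hxm
  have hd2 := ringKrullDim_le_spanFinrank_maximalIdeal (R ⧸ I)
  have hne : ringKrullDim (R ⧸ I) ≠ ⊥ :=
    ne_bot_of_le_ne_bot (by simp) (ringKrullDim_nonneg_of_nontrivial (R := R ⧸ I))
  obtain ⟨d, hd⟩ := WithBot.ne_bot_iff_exists.mp hne
  rw [← hd] at hd1 hd2
  rw [hdim] at hd1
  have hd1' : (n : ℕ∞) ≤ d + 1 := by exact_mod_cast hd1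
  have hd2' : d ≤ ((maximalIdeal (R ⧸ I)).spanFinrank : ℕ∞) := by exact_mod_cast hd2
  have hle : (((maximalIdeal (R ⧸ I)).spanFinrank : ℕ) : ℕ∞) ≤ d := by
    have h3 : (((maximalIdeal (R ⧸ I)).spanFinrank + 1 : ℕ) : ℕ∞) ≤ d + 1 := by
      calc (((maximalIdeal (R ⧸ I)).spanFinrank + 1 : ℕ) : ℕ∞) ≤ (n : ℕ∞) := by
            exact_mod_cast (hn ▸ hA)
        _ ≤ d + 1 := hd1'
    push_cast at h3
    exact (ENat.add_le_add_iff_right ENat.one_ne_top).mp h3
  have : IsRegularLocalRing (R ⧸ I) := by
    apply IsRegularLocalRing.of_spanFinrank_maximalIdeal_le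
    rw [← hd]; exact_mod_cast hle
  have : IsDomain (R ⧸ I) := ih _ (by omega) (R ⧸ I) rfl
  have hIp : I.IsPrime := (Ideal.Quotient.isDomain_iff_prime I).mp inferInstance
  obtain ⟨p, hpmin, hpI⟩ := Ideal.exists_minimalPrimes_le (I := (⊥ : Ideal R)) (J := I) bot_le
  have hpp : p.IsPrime := hpmin.1.1
  have hxp : x ∉ p := hxmin p hpmin
  have hpsmul : p ≤ maximalIdeal R • p := by
    intro y hy
    obtain ⟨a, rfl⟩ := Ideal.mem_span_singleton'.mp (hpI hy)
    have ha : a ∈ p := (hpp.mem_or_mem hy).resolve_right hxp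
    rw [mul_comm]
    exact Submodule.smul_mem_smul hxm ha
  have hpbot : p = ⊥ :=
    Submodule.eq_bot_of_le_smul_of_le_jacobson_bot (maximalIdeal R) p
      p.fg_of_isNoetherianRing hpsmul hjac
  have : (⊥ : Ideal R).IsPrime := hpbot ▸ hpp
  exact IsDomain.of_bot_isPrime R

/-- Every regular local ring is an integral domain. -/
theorem isDomain (R : Type u) [CommRing R] [IsRegularLocalRing R] : IsDomain R :=
  isDomain_aux _ R rfl

end Groth.Agent.Lib.Lead.RegLocal
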