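import Groth.Agent.Lib.Lead.RegLocal
import Mathlib.RingTheory.Regular.RegularSequence

/-! Minimal generating sets of the maximal ideal of a regular local ring are regular sequences. -/

set_option autoImplicit false

universe u

namespace Groth.Agent.Lib.Lead.RegSeq

open IsLocalRing RingTheory.Sequence Pointwise

theorem isWeaklyRegular_aux : ∀ (d : ℕ) (R : Type u) [CommRing R] [IsRegularLocalRing R],
    ringKrullDim R = d → ∀ (l : List R), l.length = d →
    Ideal.span {r | r ∈ l} = maximalIdeal R → IsWeaklyRegular R l := by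
  intro d
  induction d with
  | zero =>
    intro R _ _ _ l hl _
    rw [List.length_eq_zero_iff.mp hl]
    exact IsWeaklyRegular.nil R R
  | succ d ih =>
    intro R _ _ hdim l hl hspan
    classical
    obtain ⟨r, rs, rfl⟩ : ∃ r rs, l = r :: rs := by
      cases l with
      | nil => simp at hl
      | cons r rs => exact ⟨r, rs, rfl⟩
    have hrs : rs.length = d := by simpa using hl
    have := Groth.Agent.Lib.Lead.RegLocal.isDomain R
    have hsf : ((maximalIdeal R).spanFinrank : WithBot ℕ∞) = ((d + 1 : ℕ) : WithBot ℕ∞) := by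
      rw [IsRegularLocalRing.spanFinrank_maximalIdeal, hdim]
    have hsf' : (maximalIdeal R).spanFinrank = d + 1 := by exact_mod_cast hsf
    have hrm : r ∈ maximalIdeal R := hspan ▸ Ideal.subset_span (by simp)
    -- r ≠ 0
    have hr0 : r ≠ 0 := by
      rintro rfl
      have hm : maximalIdeal R = Ideal.span {s | s ∈ rs} := by
        rw [← hspan]
        apply le_antisymm
        · rw [Ideal.span_le]
          intro s hs
          simp only [List.mem_cons, Set.mem_ofPred_eq] at hs
          rcases hs with rfl | hs
          · exact zero_mem _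
          · exact Ideal.subset_span hs
        · apply Ideal.span_mono
          intro s hs
          simp only [List.mem_cons, Set.mem_ofPred_eq] at hs ⊢
          exact Or.inr hs
      have hfin : ({s | s ∈ rs} : Set R).Finite := rs.finite_toSet
      have h1 := Submodule.spanFinrank_span_le_ncard_of_finite (R := R) hfin
      rw [show Submodule.span R {s | s ∈ rs} = Ideal.span {s | s ∈ rs} from rfl, ← hm, hsf'] at h1
      have h2 : ({s | s ∈ rs} : Set R).ncard ≤ rs.length := by
        have : ({s | s ∈ rs} : Set R) = (rs.toFinset : Set R) := by ext; simp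
        rw [this, Set.ncard_coe_finset]
        exact List.toFinset_card_le rs
      omega
    have hreg : IsSMulRegular R r := IsSMulRegular.of_ne_zero hr0
    have hnzd : r ∈ nonZeroDivisors R := mem_nonZeroDivisors_of_ne_zero hr0
    set I : Ideal R := Ideal.span ({r} : Set R) with hI
    have hIle : I ≤ maximalIdeal R := (Ideal.span_singleton_le_iff_mem _).mpr hrm
    have hItop : I ≠ ⊤ := ne_top_of_le_ne_top (maximalIdeal.isMaximal R).ne_top hIle
    have : Nontrivial (R ⧸ I) := Ideal.Quotient.nontrivial_iff.mpr hItop
    have : IsLocalRing (R ⧸ I) :=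
      IsLocalRing.of_surjective' (Ideal.Quotient.mk I) Ideal.Quotient.mk_surjective
    have hd := ringKrullDim_quotient_span_singleton_succ_eq_ringKrullDim_of_mem_nonZeroDivisors
      hnzd hrm
    rw [hdim] at hd
    have hne : ringKrullDim (R ⧸ I) ≠ ⊥ :=
      ne_bot_of_le_ne_bot (by simp) (ringKrullDim_nonneg_of_nontrivial (R := R ⧸ I))
    obtain ⟨e, he⟩ := WithBot.ne_bot_iff_exists.mp hne
    have hd' : ringKrullDim (R ⧸ I) = d := by
      rw [← he] at hd ⊢
      have h3 : e + 1 = ((d + 1 : ℕ) : ℕ∞) := by exact_mod_cast hd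
      have h4 : e = (d : ℕ∞) := by
        push_cast at h3
        exact ENat.add_left_injective_of_ne_top ENat.one_ne_top h3
      rw [h4]; rfl
    set f : R →+* R ⧸ I := Ideal.Quotient.mk I
    have hf : Function.Surjective f := Ideal.Quotient.mk_surjective
    have hm' : maximalIdeal (R ⧸ I) = Ideal.span {s | s ∈ rs.map f} := by
      rw [← IsLocalRing.map_maximalIdeal_of_surjective f hf, ← hspan, Ideal.map_span]
      have hfr : f r = 0 := Ideal.Quotient.eq_zero_iff_mem.mpr (Ideal.mem_span_singleton_self r)
      apply le_antisymm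
      · rw [Ideal.span_le]
        rintro _ ⟨s, hs, rfl⟩
        simp only [List.mem_cons, Set.mem_ofPred_eq] at hs
        rcases hs with rfl | hs
        · rw [hfr]; exact zero_mem _
        · exact Ideal.subset_span (by simp only [Set.mem_ofPred_eq, List.mem_map]; exact ⟨s, hs, rfl⟩)
      · rw [Ideal.span_le]
        intro t ht
        simp only [Set.mem_ofPred_eq, List.mem_map] at ht
        obtain ⟨s, hs, rfl⟩ := ht
        exact Ideal.subset_span ⟨s, by simp [hs], rfl⟩
    have hregq : IsRegularLocalRing (R ⧸ I) := by
      apply IsRegularLocalRing.of_spanFinrank_maximalIdeal_le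
      rw [hd', hm']
      have hfin : ({s | s ∈ rs.map f} : Set (R ⧸ I)).Finite := (rs.map f).finite_toSet
      have h1 := Submodule.spanFinrank_span_le_ncard_of_finite (R := R ⧸ I) hfin
      have h2 : ({s | s ∈ rs.map f} : Set (R ⧸ I)).ncard ≤ d := by
        have : ({s | s ∈ rs.map f} : Set (R ⧸ I)) = ((rs.map f).toFinset : Set (R ⧸ I)) := by
          ext; simp
        rw [this, Set.ncard_coe_finset]
        exact (List.toFinset_card_le _).trans (by simp [hrs])
      exact_mod_cast h1.trans h2
    have hih := ih (R ⧸ I) hd' (rs.map f) (by simp [hrs]) hm'.symm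
    rw [isWeaklyRegular_cons_iff']
    refine ⟨hreg, ?_⟩
    have hsm : (r • (⊤ : Submodule R R)) = (I.restrictScalars R : Submodule R R) := by
      rw [hI, ← Submodule.ideal_span_singleton_smul, smul_eq_mul, Ideal.mul_top]
      rfl
    let e0 : QuotSMulTop r R ≃ₗ[R] R ⧸ I := Submodule.quotEquivOfEq _ _ hsm
    let e1 : QuotSMulTop r R ≃ₗ[R ⧸ I] R ⧸ I :=
      LinearEquiv.extendScalarsOfSurjective (R := R) (S := R ⧸ I) hf e0
    exact (e1.isWeaklyRegular_congr _).mpr hih

theorem isRegular_ofFn (R : Type u) [CommRing R] [IsRegularLocalRing R] (d : ℕ)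
    (hd : ringKrullDim R = d) (x : Fin d → R)
    (hx : Ideal.span (Set.range x) = IsLocalRing.maximalIdeal R) :
    RingTheory.Sequence.IsRegular R (List.ofFn x) := by
  have hspan : Ideal.span {r | r ∈ List.ofFn x} = maximalIdeal R := by
    rw [← hx]; congr 1; ext; simp [List.mem_ofFn]
  have hw := isWeaklyRegular_aux d R hd (List.ofFn x) (by simp) hspan
  apply RingTheory.Sequence.IsRegular.of_isWeaklyRegular_of_mem_maximalIdeal
  · intro r hr
    rw [← hspan]; exact Ideal.subset_span hr
  · exact hw

end Groth.Agent.Lib.Lead.RegSeq
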