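import Mathlib.LinearAlgebra.Finsupp.SumProd
import Mathlib.LinearAlgebra.Finsupp.Pi
import Mathlib.LinearAlgebra.Prod
import Mathlib.LinearAlgebra.Finsupp.Defs
import Mathlib.Algebra.Module.Projective
import Mathlib.LinearAlgebra.FreeModule.Basic
import Mathlib.SetTheory.Cardinal.Arithmetic

/-! The Eilenberg swindle for modules (lead's library). -/

set_option autoImplicit false

universe u

namespace Groth.Agent.Lib.Lead.Swindle

variable (R : Type u) [CommRing R]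

/-- `(α →₀ A × B) ≃ (α →₀ A) × (α →₀ B)`. -/
noncomputable def splitFinsupp (α : Type u) (A B : Type u) [AddCommGroup A] [Module R A]
    [AddCommGroup B] [Module R B] : (α →₀ (A × B)) ≃ₗ[R] (α →₀ A) × (α →₀ B) :=
  LinearEquiv.ofLinearMap
    ((Finsupp.mapRange.linearMap (LinearMap.fst R A B)).prod
      (Finsupp.mapRange.linearMap (LinearMap.snd R A B)))
    ((Finsupp.mapRange.linearMap (LinearMap.inl R A B)).coprod
      (Finsupp.mapRange.linearMap (LinearMap.inr R A B)))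
    (by ext <;> simp)
    (by ext <;> simp)

/-- `(ℕ →₀ A) ≃ A × (ℕ →₀ A)`. -/
noncomputable def shiftFinsupp (A : Type u) [AddCommGroup A] [Module R A] :
    (ULift.{u} ℕ →₀ A) ≃ₗ[R] A × (ULift.{u} ℕ →₀ A) :=
  let e1 : ULift.{u} ℕ ≃ (ULift.{u} ℕ ⊕ PUnit.{u+1}) :=
    Equiv.ulift.trans (Equiv.natSumPUnitEquivNat.symm.trans
      (Equiv.sumCongr Equiv.ulift.symm (Equiv.refl _)))
  (Finsupp.domLCongr e1).trans <|
    (Finsupp.sumFinsuppLEquivProdFinsupp R).trans <|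
      (LinearEquiv.prodCongr (LinearEquiv.refl R _)
        (Finsupp.uniqueLinearEquiv R A PUnit.unit)).trans (LinearEquiv.prodComm R _ _)

/-- Eilenberg swindle: `P × (ℕ →₀ P × Q) ≃ (ℕ →₀ P × Q)`. -/
noncomputable def swindle (P Q : Type u) [AddCommGroup P] [Module R P] [AddCommGroup Q]
    [Module R Q] : (P × (ULift.{u} ℕ →₀ (P × Q))) ≃ₗ[R] (ULift.{u} ℕ →₀ (P × Q)) :=
  (LinearEquiv.prodCongr (LinearEquiv.refl R P) (splitFinsupp R _ P Q)).trans <|
    (LinearEquiv.prodAssoc R P _ _).symm.trans <|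
      (LinearEquiv.prodCongr (shiftFinsupp R P).symm (LinearEquiv.refl R _)).trans
        (splitFinsupp R _ P Q).symm

/-- For infinite `ι`, `ι →₀ R ≃ (ℕ →₀ (ι →₀ R))`. -/
theorem exists_equiv_nat_finsupp (ι : Type u) [Infinite ι] :
    Nonempty ((ι →₀ R) ≃ₗ[R] (ULift.{u} ℕ →₀ (ι →₀ R))) := by
  have h : Cardinal.mk (ULift.{u} ℕ × ι) = Cardinal.mk ι := by
    rw [Cardinal.mk_prod, Cardinal.lift_id, Cardinal.lift_id, Cardinal.mk_uLift,
      Cardinal.mk_nat, Cardinal.lift_aleph0]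
    exact Cardinal.aleph0_mul_eq (Cardinal.aleph0_le_mk ι)
  obtain ⟨e⟩ := Cardinal.eq.mp h
  exact ⟨(Finsupp.domLCongr e.symm).trans (Finsupp.curryLinearEquiv R)⟩

/-- If `P × Q ≃ ι →₀ R` with `ι` infinite then `P × (ι →₀ R) ≃ ι →₀ R`. -/
theorem prod_free_equiv (P Q : Type u) [AddCommGroup P] [Module R P]
    [AddCommGroup Q] [Module R Q] (ι : Type u) [Infinite ι] (e : (P × Q) ≃ₗ[R] (ι →₀ R)) :
    Nonempty ((P × (ι →₀ R)) ≃ₗ[R] (ι →₀ R)) := by
  obtain ⟨f⟩ := exists_equiv_nat_finsupp R ι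
  let g : (ι →₀ R) ≃ₗ[R] (ULift.{u} ℕ →₀ (P × Q)) :=
    f.trans (Finsupp.mapRange.linearEquiv e.symm)
  exact ⟨(LinearEquiv.prodCongr (LinearEquiv.refl R P) g).trans ((swindle R P Q).trans g.symm)⟩

end Groth.Agent.Lib.Lead.Swindle
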