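import Mathlib.Algebra.Module.Torsion.Free
import Mathlib.RingTheory.Localization.Finiteness
import Mathlib.RingTheory.Localization.Integer
import Mathlib.RingTheory.Localization.FractionRing
import Mathlib.Algebra.Module.LocalizedModule.Basic
import Mathlib.LinearAlgebra.Dimension.Free
import Mathlib.LinearAlgebra.FiniteDimensional.Defs
import Mathlib.LinearAlgebra.Pi

/-! Finite torsion-free modules over a domain embed into `R^n` (lead's library). -/

set_option autoImplicit false

universe u

namespace Groth.Agent.Lib.Lead.TorsionFree

open nonZeroDivisors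

theorem exists_injective_pi (R : Type u) [CommRing R] [IsDomain R] (M : Type u)
    [AddCommGroup M] [Module R M] [Module.Finite R M] [Module.IsTorsionFree R M] :
    ∃ (n : ℕ) (f : M →ₗ[R] (Fin n → R)), Function.Injective f := by
  classical
  let S := R⁰
  let K := Localization S
  let V := LocalizedModule S M
  have hfin : Module.Finite K V := inferInstance
  let φ : M →ₗ[R] V := LocalizedModule.mkLinearMap S M
  have hφ : Function.Injective φ := by
    rw [injective_iff_map_eq_zero]
    intro m hm
    obtain ⟨s, hs⟩ := (IsLocalizedModule.eq_zero_iff S φ).mp hm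
    have hreg : IsRegular (s : R) := IsRegular.of_ne_zero (nonZeroDivisors.coe_ne_zero s)
    have := hreg.isSMulRegular (M := M)
    apply this
    change (s : R) • m = (s : R) • 0
    rw [smul_zero]
    exact hs
  let n := Module.finrank K V
  let b := Module.finBasis K V
  let c : V ≃ₗ[K] (Fin n → K) := b.equivFun
  let ψ : M →ₗ[R] (Fin n → K) := (c.toLinearMap.restrictScalars R) ∘ₗ φ
  have hψ : Function.Injective ψ := c.injective.comp hφ
  obtain ⟨G, hG⟩ := Module.Finite.fg_top (R := R) (M := M)
  obtain ⟨d, hd⟩ := IsLocalization.exist_integer_multiples S (G ×ˢ Finset.univ)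
    (fun p : M × Fin n => ψ p.1 p.2)
  have hint : ∀ m : M, ∀ i : Fin n, IsLocalization.IsInteger R ((d : R) • ψ m i) := by
    intro m
    have hm : m ∈ Submodule.span R (G : Set M) := hG ▸ Submodule.mem_top
    induction hm using Submodule.span_induction with
    | mem x hx => exact fun i => hd (x, i) (Finset.mem_product.mpr ⟨hx, Finset.mem_univ _⟩)
    | zero => intro i; simp only [map_zero, Pi.zero_apply, smul_zero]; exact ⟨0, by simp⟩
    | add x y _ _ hx hy =>
      intro i
      simp only [map_add, Pi.add_apply, smul_add]
      exact IsLocalization.isInteger_add (hx i) (hy i)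
    | smul r x _ hx =>
      intro i
      simp only [map_smul, Pi.smul_apply]
      rw [smul_comm]
      exact IsLocalization.isInteger_smul (hx i)
  let ι : (Fin n → R) →ₗ[R] (Fin n → K) :=
    LinearMap.pi (fun i => (Algebra.linearMap R K) ∘ₗ LinearMap.proj i)
  have hinjK : Function.Injective (algebraMap R K) := IsLocalization.injective K le_rfl
  have hι : Function.Injective ι := by
    intro x y hxy
    funext i
    have := congrFun hxy i
    simp only [ι, LinearMap.pi_apply, LinearMap.coe_comp, Function.comp_apply,
      LinearMap.coe_proj, Function.eval, Algebra.linearMap_apply] at this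
    exact hinjK this
  let ψ' : M →ₗ[R] (Fin n → K) := (d : R) • ψ
  have hrange : ∀ m, ψ' m ∈ LinearMap.range ι := by
    intro m
    refine ⟨fun i => (hint m i).choose, ?_⟩
    funext i
    simp only [ι, LinearMap.pi_apply, LinearMap.coe_comp, Function.comp_apply,
      LinearMap.coe_proj, Function.eval, Algebra.linearMap_apply]
    rw [(hint m i).choose_spec]
    rfl
  have hψ' : Function.Injective ψ' := by
    intro x y hxy
    apply hψ
    have hd0 : (algebraMap R K (d : R)) ≠ 0 := by
      intro h
      exact nonZeroDivisors.coe_ne_zero d (hinjK (by rw [h, map_zero]))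
    funext i
    have := congrFun hxy i
    simp only [ψ', LinearMap.smul_apply, Pi.smul_apply, Algebra.smul_def] at this
    exact mul_left_cancel₀ hd0 this
  let e := LinearEquiv.ofInjective ι hι
  refine ⟨n, e.symm.toLinearMap ∘ₗ ψ'.codRestrict (LinearMap.range ι) hrange, ?_⟩
  intro x y hxy
  apply hψ'
  have := congrArg Subtype.val (e.symm.injective hxy)
  simpa using this

end Groth.Agent.Lib.Lead.TorsionFree
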